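import Cfsg.Agent.H316.VZ.Cons
import Cfsg.Agent.H799.PB.RowLyA

/-!
# S4555 and S4559, sporadic row `Ly`, `p = 5` (helper569)

`C(5A) = 5^{1+4}.2A₆` is 5-constrained, so all characters outside the principal 5-block vanish on the class `5A`.
-/

set_option autoImplicit false

namespace Cfsg.Agent.H569.PV.LyFive

open Cfsg Subgroup
open Cfsg.Agent.SporRec.LyFiveCore Cfsg.Agent.H799.PB Cfsg.Agent.H620.PNorm

/-- **`Ly`, `p = 5`**, from the existence of a second 5-block. -/
theorem vOrdP_of_nb (hNB : H7.NBp.NB 5 Cfsg.Spor.Ly) : VOrdP 5 Cfsg.Spor.Ly := by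
  have hfin : Finite Cfsg.Spor.Ly := Cfsg.Agent.Ly.Setup.finite_ly
  have hp : Fact (Nat.Prime 5) := ⟨Nat.prime_five⟩
  obtain ⟨L, f, hf⟩ := exists_lyType
  exact H316.VZ.vOrdP_of_centric hNB (orderOf_f hf) (isPGroup_core hf) (self_mem_core hf) core_le
    (fun c hc r hr => conj_mem_core_of_comm (mem_centralizer_singleton_iff.1 hc) hr) (cent_core_le hf)

/-- **S4555, S4559 : `Ly`, `p = 5`**, from the existence of a second 5-block. -/
theorem ly_5_of_nb {K : Type*} [Group K] (h : Spor.IsoLy K) (hNB : H7.NBp.NB 5 K) : VOrdP 5 K := by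
  obtain ⟨e⟩ := h
  exact (vOrdP_of_nb (hNB.iso e)).mulEquiv e.symm

end Cfsg.Agent.H569.PV.LyFive
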